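import Cfsg.Agent.H955.L16.Stmt

/-!
# S5916 (helper11): a calculator for the coefficients of brackets, and the elimination `ElimR012`

`cmb ν L = ∑ (s, i) ∈ L, ν i • e_s`.

* `coef_br` : the coefficient of `e_u` in `[cmb ν L, cmb μ M]` is the sum of `ν i * μ j` over `prs L M u`;
* `fp_cmb`, `ta_cmb`, `iz_cmb` : the operators of the frame;
* `elimR012`.
-/

set_option autoImplicit false
set_option maxRecDepth 100000

namespace Cfsg.Agent.H11.L16

open Cfsg Cfsg.Lie
open Cfsg.Agent.H413.L64 (charKK)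
open Cfsg.Agent.H939.L64 (KK LK brK)
open Cfsg.Agent.H413.L16 (er hv hr tg nr br_rr br_neg er_ge er_of tg_le)
open Cfsg.Agent.H939.L16 Cfsg.Agent.H955.L16

theorem br_ar (u v w : LK) : brK u (v + w) = brK u v + brK u w := Cfsg.Agent.H971.RV.br_add_right u v w
theorem br_al (u v w : LK) : brK (u + v) w = brK u w + brK v w := Cfsg.Agent.H971.RV.br_add_left u v w
theorem br_sr (c : KK) (u v : LK) : brK u (c • v) = c • brK u v := Cfsg.Agent.H971.RV.br_smul_right c u v
theorem br_sl (c : KK) (u v : LK) : brK (c • u) v = c • brK u v := Cfsg.Agent.H971.RV.br_smul_left c u v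
theorem br_r0 (u : LK) : brK u 0 = 0 := by
  have := br_sr 0 u 0
  rwa [zero_smul, zero_smul] at this
theorem br_l0 (u : LK) : brK 0 u = 0 := by
  have := br_sl 0 0 u
  rwa [zero_smul, zero_smul] at this

/-- linear combinations of root vectors -/
noncomputable def cmb (ν : ℕ → KK) (L : List (ℕ × ℕ)) : LK := (L.map fun p => ν p.2 • er p.1).sum

theorem cmb_nil (ν : ℕ → KK) : cmb ν [] = 0 := rfl

theorem cmb_cons (ν : ℕ → KK) (p : ℕ × ℕ) (L : List (ℕ × ℕ)) : cmb ν (p :: L) = ν p.2 • er p.1 + cmb ν L := by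
  rw [cmb, List.map_cons, List.sum_cons]; rfl

theorem cmb_append (ν : ℕ → KK) (L M : List (ℕ × ℕ)) : cmb ν (L ++ M) = cmb ν L + cmb ν M := by
  rw [cmb, List.map_append, List.sum_append]; rfl

/-- all roots are roots -/
def okL (L : List (ℕ × ℕ)) : Bool := L.all fun p => decide (p.1 < 240)

theorem okL_cons {p : ℕ × ℕ} {L : List (ℕ × ℕ)} : okL (p :: L) = true ↔ p.1 < 240 ∧ okL L = true := by
  rw [okL, List.all_cons, Bool.and_eq_true, decide_eq_true_iff]; rfl

/-! ### cancellation in pairs -/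

theorem smul_self (c : KK) (v : LK) : c • v + c • v = 0 := by
  rw [← add_smul, CharTwo.add_self_eq_zero, zero_smul]

/-- insertion with cancellation -/
def ins (p : ℕ × ℕ) : List (ℕ × ℕ) → List (ℕ × ℕ)
  | [] => [p]
  | q :: L => bif Nat.beq p.1 q.1 && Nat.beq p.2 q.2 then L else q :: ins p L

/-- cancellation in pairs -/
def nf : List (ℕ × ℕ) → List (ℕ × ℕ)
  | [] => []
  | p :: L => ins p (nf L)

theorem cmb_ins (ν : ℕ → KK) (p : ℕ × ℕ) : ∀ L : List (ℕ × ℕ), cmb ν (ins p L) = ν p.2 • er p.1 + cmb ν L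
  | [] => by rw [ins, cmb_cons]
  | q :: L => by
    rw [ins]
    by_cases h : Nat.beq p.1 q.1 && Nat.beq p.2 q.2
    · rw [h, cond_true, cmb_cons, ← add_assoc]
      rw [Bool.and_eq_true] at h
      rw [Nat.eq_of_beq_eq_true h.1, Nat.eq_of_beq_eq_true h.2, smul_self, zero_add]
    · rw [Bool.not_eq_true] at h
      rw [h, cond_false, cmb_cons, cmb_cons, cmb_ins ν p L]
      abel

theorem cmb_nf (ν : ℕ → KK) : ∀ L : List (ℕ × ℕ), cmb ν (nf L) = cmb ν L
  | [] => rfl
  | p :: L => by rw [nf, cmb_ins, cmb_nf ν L, cmb_cons]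

/-! ### coefficients of brackets -/

/-- the pairs of coefficients -/
def prs1 (p : ℕ × ℕ) (u : ℕ) : List (ℕ × ℕ) → List (ℕ × ℕ)
  | [] => []
  | q :: M => bif Nat.beq (tg p.1 q.1) u then (p.2, q.2) :: prs1 p u M else prs1 p u M

/-- the pairs of coefficients -/
def prs (M : List (ℕ × ℕ)) (u : ℕ) : List (ℕ × ℕ) → List (ℕ × ℕ)
  | [] => []
  | p :: L => prs1 p u M ++ prs M u L

/-- the value -/
noncomputable def val (ν μ : ℕ → KK) (P : List (ℕ × ℕ)) : KK := (P.map fun q => ν q.1 * μ q.2).sum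

theorem val_cons (ν μ : ℕ → KK) (p : ℕ × ℕ) (P : List (ℕ × ℕ)) : val ν μ (p :: P) = ν p.1 * μ p.2 + val ν μ P := by
  rw [val, List.map_cons, List.sum_cons]; rfl

theorem val_ins (ν μ : ℕ → KK) (p : ℕ × ℕ) : ∀ L : List (ℕ × ℕ), val ν μ (ins p L) = ν p.1 * μ p.2 + val ν μ L
  | [] => by rw [ins, val_cons]
  | q :: L => by
    rw [ins]
    by_cases h : Nat.beq p.1 q.1 && Nat.beq p.2 q.2
    · rw [h, cond_true, val_cons, ← add_assoc]
      rw [Bool.and_eq_true] at h
      rw [Nat.eq_of_beq_eq_true h.1, Nat.eq_of_beq_eq_true h.2, CharTwo.add_self_eq_zero, zero_add]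
    · rw [Bool.not_eq_true] at h
      rw [h, cond_false, val_cons, val_cons, val_ins ν μ p L]
      abel

theorem val_nf (ν μ : ℕ → KK) : ∀ L : List (ℕ × ℕ), val ν μ (nf L) = val ν μ L
  | [] => rfl
  | p :: L => by rw [nf, val_ins, val_nf ν μ L, val_cons]

theorem val_append (ν μ : ℕ → KK) (P Q : List (ℕ × ℕ)) : val ν μ (P ++ Q) = val ν μ P + val ν μ Q := by
  rw [val, List.map_append, List.sum_append]; rfl

/-- the coefficient of `e_u` -/
noncomputable def cf (v : LK) (u : ℕ) : KK := if h : u < chevE8.nroots then v (Sum.inr ⟨u, h⟩) else 0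

theorem cf_add (v w : LK) (u : ℕ) : cf (v + w) u = cf v u + cf w u := by
  unfold cf
  split_ifs
  · rfl
  · rw [add_zero]

theorem cf_smul (c : KK) (v : LK) (u : ℕ) : cf (c • v) u = c * cf v u := by
  unfold cf
  split_ifs
  · rfl
  · rw [mul_zero]

theorem cf_zero (u : ℕ) : cf 0 u = 0 := by
  unfold cf
  split_ifs <;> rfl

theorem cf_er {s u : ℕ} (hu : u < 240) : cf (er s) u = if s = u then 1 else 0 := by
  have hu' : u < chevE8.nroots := by rw [nr]; exact hu
  unfold cf
  rw [dif_pos hu']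
  by_cases hs : s < 240
  · have hs' : s < chevE8.nroots := by rw [nr]; exact hs
    rw [er_of hs']
    by_cases h : s = u
    · subst h
      rw [Pi.single_eq_same, if_pos rfl]
    · rw [Pi.single_eq_of_ne, if_neg h]
      intro h1
      exact h (congrArg Fin.val (Sum.inr.inj h1)).symm
  · rw [er_ge (by omega), if_neg (by omega)]
    rfl

theorem tg_opp {s : ℕ} (hs : s < 240) : 240 ≤ tg s (239 - s) := by
  by_contra h
  exact ((Cfsg.Agent.H413.L16.chain_mod (s := 239 - s) (u := 0) hs).2.1 (by omega)).2.1 rfl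

theorem cf_rr {s t u : ℕ} (hs : s < 240) (ht : t < 240) (hu : u < 240) :
    cf (brK (er s) (er t)) u = if tg s t = u then 1 else 0 := by
  by_cases h : t = 239 - s
  · subst h
    rw [br_neg hs, if_neg (by have := tg_opp hs; omega)]
    unfold cf
    split_ifs
    · rfl
    · rfl
  · rw [br_rr hs ht h, cf_er hu]

theorem cf_br1 (c : KK) (p : ℕ × ℕ) (μ : ℕ → KK) {u : ℕ} (hp : p.1 < 240) (hu : u < 240) (ν : ℕ → KK) :
    ∀ {M : List (ℕ × ℕ)}, okL M = true → cf (brK (ν p.2 • er p.1) (cmb μ M)) u = val ν μ (prs1 p u M)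
  | [], _ => by
    rw [cmb_nil, br_r0, cf_zero]
    rfl
  | q :: M, hM => by
    rw [okL_cons] at hM
    rw [cmb_cons, br_ar, cf_add, cf_br1 c p μ hp hu ν hM.2,
      br_sr, br_sl, cf_smul, cf_smul, cf_rr hp hM.1 hu, prs1]
    by_cases h : tg p.1 q.1 = u
    · have h1 : Nat.beq (tg p.1 q.1) u = true := by rw [h]; exact Nat.beq_refl u
      rw [if_pos h, h1, cond_true, mul_one]
      show _ = (((p.2, q.2) :: prs1 p u M).map fun q => ν q.1 * μ q.2).sum
      rw [List.map_cons, List.sum_cons, mul_comm (μ q.2)]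
      rfl
    · have h1 : Nat.beq (tg p.1 q.1) u = false := by
        rw [Bool.eq_false_iff]
        exact fun h2 => h (Nat.eq_of_beq_eq_true h2)
      rw [if_neg h, h1, cond_false, mul_zero, mul_zero, zero_add]

/-- **the coefficients of the brackets** -/
theorem coef_br (ν μ : ℕ → KK) {u : ℕ} (hu : u < 240) : ∀ {L M : List (ℕ × ℕ)}, okL L = true → okL M = true →
    cf (brK (cmb ν L) (cmb μ M)) u = val ν μ (prs M u L)
  | [], M, _, _ => by
    rw [cmb_nil, br_l0, cf_zero]
    rfl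
  | p :: L, M, hL, hM => by
    rw [okL_cons] at hL
    rw [cmb_cons, br_al, cf_add, cf_br1 0 p μ hL.1 hu ν hM, coef_br ν μ hu hL.2 hM, prs, val_append]

/-! ### the operators -/

def fpL (L : List (ℕ × ℕ)) : List (ℕ × ℕ) := L.map fun p => (wi p.1, p.2)

def taL (L : List (ℕ × ℕ)) : List (ℕ × ℕ) := L.map fun p => (wi (wi (wi (wi p.1))), p.2)

variable {Fp : LK → LK} {ta : LK →ₗ[KK] LK}

theorem fp_zero (h : Ops Fp ta) : Fp 0 = 0 := by
  have := h.smul 0 0
  rwa [zero_smul, zero_pow (by norm_num), zero_smul] at this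

theorem fp_cmb (h : Ops Fp ta) (ν : ℕ → KK) : ∀ {L : List (ℕ × ℕ)}, okL L = true →
    Fp (cmb ν L) = cmb (fun i => ν i ^ 2) (fpL L)
  | [], _ => by rw [cmb_nil, fp_zero h]; rfl
  | p :: L, hL => by
    rw [okL_cons] at hL
    rw [cmb_cons, h.add, h.smul, h.er _ hL.1, fp_cmb h ν hL.2]
    show _ = cmb (fun i => ν i ^ 2) ((wi p.1, p.2) :: fpL L)
    rw [cmb_cons]

theorem ta_cmb (h : Ops Fp ta) (ν : ℕ → KK) : ∀ {L : List (ℕ × ℕ)}, okL L = true →
    ta (cmb ν L) = cmb ν (taL L)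
  | [], _ => by rw [cmb_nil, map_zero]; rfl
  | p :: L, hL => by
    rw [okL_cons] at hL
    rw [cmb_cons, map_add, map_smul, h.ter _ hL.1, ta_cmb h ν hL.2]
    show _ = cmb ν ((wi (wi (wi (wi p.1))), p.2) :: taL L)
    rw [cmb_cons]

/-- `x_b(1)` -/
def xL (b : ℕ) : List (ℕ × ℕ) → List (ℕ × ℕ)
  | [] => []
  | p :: L => bif Nat.blt (tg b p.1) 240 then p :: (tg b p.1, p.2) :: xL b L else p :: xL b L

/-- no root is opposite to `b` -/
def okB (b : ℕ) (L : List (ℕ × ℕ)) : Bool := L.all fun p => !(Nat.beq p.1 (239 - b))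

theorem okB_cons {b : ℕ} {p : ℕ × ℕ} {L : List (ℕ × ℕ)} : okB b (p :: L) = true ↔ p.1 ≠ 239 - b ∧ okB b L = true := by
  rw [okB, List.all_cons, Bool.and_eq_true, Bool.not_eq_true', Bool.eq_false_iff]
  constructor
  · rintro ⟨h1, h2⟩
    exact ⟨fun h => h1 (by rw [h]; exact Nat.beq_refl _), h2⟩
  · rintro ⟨h1, h2⟩
    exact ⟨fun h => h1 (Nat.eq_of_beq_eq_true h), h2⟩

theorem xl_add (r : Fin chevE8.nroots) (c : KK) (u v : LK) : xl r c (u + v) = xl r c u + xl r c v := by
  unfold xl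
  rw [br_ar, Pi.add_apply, mul_add, add_smul, smul_add]
  abel

theorem xl_zero (r : Fin chevE8.nroots) (c : KK) : xl r c 0 = 0 := by
  unfold xl
  rw [br_r0, Pi.zero_apply, mul_zero, zero_smul, smul_zero]
  simp

theorem xl_er {b : ℕ} (hb : b < chevE8.nroots) {s : ℕ} (hs : s < 240) (hne : s ≠ 239 - b) (c : KK) :
    xl ⟨b, hb⟩ 1 (c • er s) = c • er s + c • er (tg b s) := by
  have hb' : b < 240 := by rw [← nr]; exact hb
  unfold xl
  have h1 : (c • er s : LK) (Sum.inr (Fin.rev ⟨b, hb⟩)) = 0 := by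
    rw [Pi.smul_apply]
    have hs' : s < chevE8.nroots := by rw [nr]; exact hs
    rw [er_of hs', Pi.single_eq_of_ne, smul_zero]
    intro h2
    apply hne
    have h3 := congrArg Fin.val (Sum.inr.inj h2)
    rw [Fin.val_rev] at h3
    have h4 := nr
    simp only at h3
    omega
  rw [h1, mul_zero, zero_smul, add_zero, one_smul, br_sr, br_rr hb' hs hne]

theorem xl_cmb {b : ℕ} (hb : b < chevE8.nroots) (ν : ℕ → KK) : ∀ {L : List (ℕ × ℕ)}, okL L = true → okB b L = true →
    xl ⟨b, hb⟩ 1 (cmb ν L) = cmb ν (xL b L)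
  | [], _, _ => by rw [cmb_nil, xl_zero]; rfl
  | p :: L, hL, hB => by
    rw [okL_cons] at hL
    rw [okB_cons] at hB
    rw [cmb_cons, xl_add, xl_er hb hL.1 hB.1, xl_cmb hb ν hL.2 hB.2, xL]
    by_cases h : tg b p.1 < 240
    · have h1 : Nat.blt (tg b p.1) 240 = true := by rw [Nat.blt_eq]; exact h
      rw [h1, cond_true, cmb_cons, cmb_cons, add_assoc]
    · have h1 : Nat.blt (tg b p.1) 240 = false := by
        rw [Bool.eq_false_iff]
        exact fun h2 => h (by rwa [Nat.blt_eq] at h2)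
      rw [h1, cond_false, cmb_cons, er_ge (s := tg b p.1) (by omega), smul_zero, add_zero]

/-- the operator `i` on lists -/
def izL (L : List (ℕ × ℕ)) : List (ℕ × ℕ) := xL 121 (xL 126 (xL 141 (xL 135 L)))

/-- the checks for `iz` -/
def okI (L : List (ℕ × ℕ)) : Bool :=
  okL L && okB 135 L && (okL (xL 135 L) && okB 141 (xL 135 L)) && (okL (xL 141 (xL 135 L)) && okB 126 (xL 141 (xL 135 L))) &&
    (okL (xL 126 (xL 141 (xL 135 L))) && okB 121 (xL 126 (xL 141 (xL 135 L)))) && okL (izL L)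

theorem iz_cmb (ν : ℕ → KK) {L : List (ℕ × ℕ)} (h : okI L = true) : iz (cmb ν L) = cmb ν (izL L) := by
  simp only [okI, Bool.and_eq_true] at h
  obtain ⟨⟨⟨⟨⟨h1, h2⟩, h3, h4⟩, h5, h6⟩, h7, h8⟩, -⟩ := h
  unfold iz izL
  rw [xl_cmb _ ν h1 h2, xl_cmb _ ν h3 h4, xl_cmb _ ν h5 h6, xl_cmb _ ν h7 h8]

/-- `t0` on lists -/
def tL (L : List (ℕ × ℕ)) : List (ℕ × ℕ) := izL (taL L)

theorem T_cmb (h : Ops Fp ta) (ν : ℕ → KK) {L : List (ℕ × ℕ)} (h1 : okL L = true) (h2 : okI (taL L) = true) :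
    T ta (cmb ν L) = cmb ν (tL L) := by
  unfold T tL
  rw [ta_cmb h ν h1, iz_cmb ν h2]

/-! ### the generic vectors -/

def lR : List (ℕ × ℕ) := [(128, 0), (127, 1), (131, 1), (136, 2), (163, 2), (147, 3), (137, 4), (143, 5), (148, 6)]

def lN : List (ℕ × ℕ) := [(157, 0), (172, 1), (2, 2), (154, 2), (129, 3), (156, 3), (2, 4), (167, 4)]

/-- seven coefficients -/
noncomputable def e7 (a b c d e f g : KK) : ℕ → KK
  | 0 => a | 1 => b | 2 => c | 3 => d | 4 => e | 5 => f | 6 => g | _ => 0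

/-- five coefficients -/
noncomputable def e5 (a b c d e : KK) : ℕ → KK
  | 0 => a | 1 => b | 2 => c | 3 => d | 4 => e | _ => 0

theorem vR_eq (k o1 o3 r1 r2 r3 r0 : KK) : vR k o1 o3 r1 r2 r3 r0 = cmb (e7 k o1 o3 r1 r2 r3 r0) lR := by
  simp only [vR, cmb, lR, List.map_cons, List.map_nil, List.sum_cons, List.sum_nil, e7, smul_add]
  abel

theorem vN_eq (K1 K2 A A2 B : KK) : vN K1 K2 A A2 B = cmb (e5 K1 K2 A A2 B) lN := by
  simp only [vN, cmb, lN, List.map_cons, List.map_nil, List.sum_cons, List.sum_nil, e5, smul_add]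
  abel

theorem vN_zero : vN 0 0 0 0 0 = 0 := by simp [vN]

theorem T_zero (ta : LK →ₗ[KK] LK) : T ta 0 = 0 := by
  unfold T iz
  rw [map_zero, xl_zero, xl_zero, xl_zero, xl_zero]

/-! ### checks -/

/-- one coefficient of a bracket -/
theorem coef_eq {u : ℕ} {L M P : List (ℕ × ℕ)}
    (hc : (Nat.blt u 240 && (okL L && okL M) && decide (nf (prs M u L) = P)) = true) (ν μ : ℕ → KK) :
    cf (brK (cmb ν L) (cmb μ M)) u = val ν μ P := by
  rw [Bool.and_eq_true, Bool.and_eq_true, Bool.and_eq_true, decide_eq_true_iff, Nat.blt_eq] at hc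
  rw [coef_br ν μ hc.1.1 hc.1.2.1 hc.1.2.2, ← hc.2, val_nf]

/-- `t0` with a normal form -/
theorem T_eq (h : Ops Fp ta) {L M : List (ℕ × ℕ)} (hc : (okL L && okI (taL L) && decide (nf (tL L) = M)) = true)
    (ν : ℕ → KK) : T ta (cmb ν L) = cmb ν M := by
  rw [Bool.and_eq_true, Bool.and_eq_true, decide_eq_true_iff] at hc
  rw [T_cmb h ν hc.1.1 hc.1.2, ← cmb_nf, hc.2]

/-- the Frobenius map with explicit lists -/
theorem Fp_eq (h : Ops Fp ta) {L M : List (ℕ × ℕ)} (hc : (okL L && decide (fpL L = M)) = true)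
    (ν : ℕ → KK) : Fp (cmb ν L) = cmb (fun i => ν i ^ 2) M := by
  rw [Bool.and_eq_true, decide_eq_true_iff] at hc
  rw [fp_cmb h ν hc.1, hc.2]

/-! ### `ElimR012` -/

def lN1 : List (ℕ × ℕ) := fpL lN
def lN2 : List (ℕ × ℕ) := [(234, 0), (45, 1), (71, 2), (233, 2), (58, 3), (232, 3), (71, 4), (44, 4)]
def lN3 : List (ℕ × ℕ) := [(193, 0), (22, 1), (219, 2), (192, 2), (12, 3), (183, 3), (219, 4), (21, 4)]
/-- `t0 lN2` -/
def tN2 : List (ℕ × ℕ) :=
  [(205, 4), (204, 4), (173, 4), (8, 3), (6, 3), (191, 3), (8, 2), (7, 2), (173, 2), (205, 1), (8, 0)]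
/-- `t0 lR` -/
def tR : List (ℕ × ℕ) := [(109, 6), (109, 5), (103, 5), (109, 4), (97, 4), (109, 3), (108, 3), (77, 2), (109, 2),
  (108, 2), (97, 2), (96, 2), (109, 1), (97, 1), (103, 1), (92, 1), (116, 1), (115, 1), (116, 0)]
/-- `t0 lN3` -/
def tN3 : List (ℕ × ℕ) :=
  [(223, 4), (222, 4), (25, 4), (57, 3), (47, 3), (228, 3), (57, 2), (56, 2), (25, 2), (223, 1), (57, 0)]
/-- `t0 lN` -/
def tN : List (ℕ × ℕ) :=
  [(73, 4), (68, 4), (238, 4), (86, 3), (85, 3), (114, 3), (86, 2), (83, 2), (238, 2), (73, 1), (86, 0)]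

theorem c1 : (okL lN && decide (fpL lN = lN1)) = true := by decide +kernel
theorem c2 : (okL lN1 && decide (fpL lN1 = lN2)) = true := by decide +kernel
theorem c3 : (okL lN2 && decide (fpL lN2 = lN3)) = true := by decide +kernel
theorem t1 : (okL lN && okI (taL lN) && decide (nf (tL lN) = tN)) = true := by decide +kernel
theorem t2 : (okL lN2 && okI (taL lN2) && decide (nf (tL lN2) = tN2)) = true := by decide +kernel
theorem t2' : (okL tN2 && okI (taL tN2) && decide (nf (tL tN2) = lN2)) = true := by decide +kernel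
theorem t3 : (okL lN3 && okI (taL lN3) && decide (nf (tL lN3) = tN3)) = true := by decide +kernel
theorem tR1 : (okL lR && okI (taL lR) && decide (nf (tL lR) = tR)) = true := by decide +kernel

theorem mul_zero_left {a b : KK} (h : a * b = 0) (hb : b ≠ 0) : a = 0 := (mul_eq_zero.1 h).resolve_right hb

theorem pow4 {a : KK} (h : (a ^ 2) ^ 2 = 0) : a = 0 := by
  rw [← pow_mul] at h
  exact pow_eq_zero_iff (by norm_num) |>.1 h

/-- **the elimination for type R, `(0,1,2)`** -/
theorem elimR012 (h : Ops Fp ta) : ElimR012 Fp ta := by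
  intro s k o1 o3 r1 r2 r3 r0 K1 K2 A A2 B hR hA e0 e1 e2 e3 hne hT hSS hSA hSB
  set ν : ℕ → ℕ → KK := fun i => e5 (K1 i) (K2 i) (A i) (A2 i) (B i) with hν
  set ρ : ℕ → KK := e7 k o1 o3 r1 r2 r3 r0 with hρ
  have f0 : s true true true = cmb (fun j => ((ν 0 j ^ 2) ^ 2) ^ 2) lN3 := by
    rw [e0, vN_eq, Fp_eq h c1, Fp_eq h c2, Fp_eq h c3]
  have f1 : s true false true = cmb (ν 1) lN := by rw [e1, vN_eq]
  have f2 : s false true true = cmb (fun j => (ν 2 j ^ 2) ^ 2) tN2 := by
    rw [e2, vN_eq, Fp_eq h c1, Fp_eq h c2, T_eq h t2]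
  have f3 : s false false true = cmb ρ lR := by rw [e3, vR_eq]
  have g0 : s false false false = cmb (fun j => ((ν 0 j ^ 2) ^ 2) ^ 2) tN3 := by
    have := hT true true true
    rw [f0, T_eq h t3] at this
    exact this
  have g1 : s false true false = cmb (ν 1) tN := by
    have := hT true false true
    rw [f1, T_eq h t1] at this
    exact this
  have g2 : s true false false = cmb (fun j => (ν 2 j ^ 2) ^ 2) lN2 := by
    have := hT false true true
    rw [f2, T_eq h t2'] at this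
    exact this
  have g3 : s true true false = cmb ρ tR := by
    have := hT false false true
    rw [f3, T_eq h tR1] at this
    exact this
  have key : ∀ {x y : LK} {μ τ : ℕ → KK} {L M P : List (ℕ × ℕ)} {u : ℕ}, x = cmb μ L → y = cmb τ M →
      (Nat.blt u 240 && (okL L && okL M) && decide (nf (prs M u L) = P)) = true → brK x y = 0 → val μ τ P = 0 := by
    intro x y μ τ L M P u hx hy hc h0
    rw [← coef_eq hc μ τ, ← hx, ← hy, h0, cf_zero]
  constructor
  · by_contra ho
    have h200 := key (P := [(3, 1)]) (u := 200) f2 f3 (by decide +kernel) (hSS _ _ _ _ _ _)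
    have h178 := key (P := [(4, 1)]) (u := 178) f2 g3 (by decide +kernel) (hSS _ _ _ _ _ _)
    have h54 := key (P := [(1, 1)]) (u := 54) g2 f3 (by decide +kernel) (hSS _ _ _ _ _ _)
    have h180 := key (P := [(2, 1), (4, 1)]) (u := 180) f2 f3 (by decide +kernel) (hSS _ _ _ _ _ _)
    have h236 := key (P := [(3, 5), (2, 4), (0, 1)]) (u := 236) g2 f3 (by decide +kernel) (hSS _ _ _ _ _ _)
    simp only [val, List.map_cons, List.map_nil, List.sum_cons, List.sum_nil, hν, hρ, e5, e7, add_zero] at h200 h178 h54 h180 h236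
    have a1 := pow4 (mul_zero_left h200 ho)
    have a2 := pow4 (mul_zero_left h178 ho)
    have a3 := pow4 (mul_zero_left h54 ho)
    rw [a2] at h180
    have a4 : A 2 = 0 := by
      refine pow4 (mul_zero_left (b := o1) ?_ ho)
      linear_combination h180
    rw [a1, a4] at h236
    have a5 : K1 2 = 0 := by
      refine pow4 (mul_zero_left (b := o1) ?_ ho)
      linear_combination h236
    apply hne false true true
    rw [e2, a1, a2, a3, a4, a5, vN_zero, fp_zero h, fp_zero h, T_zero]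
  · by_contra ho
    have h188 := key (P := [(3, 2)]) (u := 188) f1 f3 (by decide +kernel) (hSS _ _ _ _ _ _)
    have h186 := key (P := [(4, 3), (2, 2), (1, 2)]) (u := 186) f1 f3 (by decide +kernel) (hSS _ _ _ _ _ _)
    have h189 := key (P := [(4, 6), (1, 4), (0, 2)]) (u := 189) f1 f3 (by decide +kernel) (hSS _ _ _ _ _ _)
    have h33 := congrArg (fun v => cf v 33) (hSA true false)
    have h228 := congrArg (fun v => cf v 228) (hSB true true)
    simp only [Fintype.sum_bool, Bool.not_true, Bool.not_false, cf_add, cf_zero] at h33 h228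
    have kc : ∀ {x y : LK} {μ τ : ℕ → KK} {L M P : List (ℕ × ℕ)} {u : ℕ}, x = cmb μ L → y = cmb τ M →
        (Nat.blt u 240 && (okL L && okL M) && decide (nf (prs M u L) = P)) = true → cf (brK x y) u = val μ τ P := by
      intro x y μ τ L M P u hx hy hc
      rw [← coef_eq hc μ τ, ← hx, ← hy]
    rw [kc (P := []) f0 ((congrArg Fp g0).trans (fp_cmb h _ (by decide +kernel))) (by decide +kernel),
      kc (P := [(2, 4)]) g3 ((congrArg Fp g1).trans (fp_cmb h _ (by decide +kernel))) (by decide +kernel),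
      kc (P := []) f1 ((congrArg Fp g2).trans (fp_cmb h _ (by decide +kernel))) (by decide +kernel),
      kc (P := []) g2 ((congrArg Fp g3).trans (fp_cmb h _ (by decide +kernel))) (by decide +kernel)] at h33
    have fp2 : ∀ {x : LK} {μ : ℕ → KK} {L : List (ℕ × ℕ)}, x = cmb μ L → (okL L && okL (fpL L)) = true →
        Fp (Fp x) = cmb (fun i => (μ i ^ 2) ^ 2) (fpL (fpL L)) := by
      intro x μ L hx hc
      rw [Bool.and_eq_true] at hc
      rw [hx, fp_cmb h _ hc.1, fp_cmb h _ hc.2]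
    rw [kc (P := []) f0 (fp2 f2 (by decide +kernel)) (by decide +kernel),
      kc (P := []) g3 (fp2 f0 (by decide +kernel)) (by decide +kernel),
      kc (P := []) f2 (fp2 g1 (by decide +kernel)) (by decide +kernel),
      kc (P := [(2, 2)]) g1 (fp2 g3 (by decide +kernel)) (by decide +kernel)] at h228
    simp only [val, List.map_cons, List.map_nil, List.sum_cons, List.sum_nil, hν, hρ, e5, e7, add_zero, zero_add]
      at h188 h186 h189 h33 h228
    have a1 := mul_zero_left h188 ho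
    have a2 : A 1 = 0 := mul_zero_left h228 (fun h' => ho (pow4 h'))
    have a3 : B 1 = 0 := by
      have := (mul_eq_zero.1 h33).resolve_left ho
      exact pow_eq_zero_iff (by norm_num) |>.1 this
    rw [a2, a3] at h186
    have a4 : K2 1 = 0 := by
      refine mul_zero_left (b := o3) ?_ ho
      linear_combination h186
    rw [a3, a4] at h189
    have a5 : K1 1 = 0 := by
      refine mul_zero_left (b := o3) ?_ ho
      linear_combination h189
    apply hne true false true
    rw [e1, a1, a2, a3, a4, a5, vN_zero]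

end Cfsg.Agent.H11.L16
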